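import Cfsg.Agent.H869.SP.Gam

/-!
# S5175: `StSP` from the group side `StSP2`
-/

set_option autoImplicit false

namespace Cfsg.Agent.H869.SP

open Cfsg Cfsg.FusionSystem Cfsg.Agent.H756.HM Cfsg.Agent.H124.SP

universe u

theorem stSP_of (h2 : StSP2.{u}) : StSP.{u} := by
  intro Ω _ S _ hS F hF K _ _ V T x b hD hcom hess
  obtain ⟨k, hk, hK, θ, hθ, co, Φ, hΦ⟩ := sp1 hS hF b hD hcom
  exact h2 hS F hF K V T x b hess k hk hK θ hθ co Φ hΦ

end Cfsg.Agent.H869.SP
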