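import Mathlib
import Cfsg.Agent.H869.SP.Base

/-!
# S5175, SP1: the Cartan subgroup lifts to `T`
-/

set_option autoImplicit false

namespace Cfsg.Agent.H869.SP

open Cfsg Cfsg.FusionSystem Cfsg.Agent.H756.HM Cfsg.Agent.H802
open Matrix (SpecialLinearGroup)

universe u

variable {Ω : Type u} [Group Ω] {S : Subgroup Ω}
  {F : FusionSystem S} {K : Type} [Field K] [Fintype K] {V T : Subgroup Ω} {x : Ω} {c : Conf F K V T x}

theorem up_mulVec (t : K) (p : Fin 2 → K) :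
    (up t : Matrix (Fin 2) (Fin 2) K).mulVec p = ![p 0 + t * p 1, p 1] := by
  ext i
  fin_cases i <;> simp [Matrix.vecHead, Matrix.vecTail]

theorem dg_mulVec (r : K) (hr : r ≠ 0) (p : Fin 2 → K) :
    (dg r hr : Matrix (Fin 2) (Fin 2) K).mulVec p = ![r * p 0, r⁻¹ * p 1] := by
  ext i
  fin_cases i <;> simp [Matrix.vecHead, Matrix.vecTail]

namespace Frm

variable (fm : Frm c)
include fm

theorem fix_of_D {v : V} (h : (v : Ω) ∈ fixS V c.E) (g : SpecialLinearGroup (Fin 2) K) :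
    (fm.ρ.symm g : MulAut V) v = v := (mem_fixS v).1 h _ (fm.ρ.symm g).2

theorem eq' (g : SpecialLinearGroup (Fin 2) K) (v : V) :
    Multiplicative.toAdd (fm.ψ ((fm.ρ.symm g : MulAut V) v)) =
      (g : Matrix (Fin 2) (Fin 2) K).mulVec (Multiplicative.toAdd (fm.ψ v)) := by
  have := fm.eq (fm.ρ.symm g) v
  rwa [MulEquiv.apply_symm_apply] at this

theorem D_le_W : fixS V c.E ≤ cj x V := by
  intro d hd
  have hdV := fixS_le hd
  apply mem_W_of_comm c (c.V_le hdV)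
  intro a ha
  obtain ⟨t, ht⟩ := fm.up a ha
  have h1 := ht ⟨d, hdV⟩
  rw [fm.fix_of_D (v := ⟨d, hdV⟩) hd] at h1
  have h2 : d = a * d * a⁻¹ := h1
  calc d * a = a * d * a⁻¹ * a := by rw [← h2]
    _ = a * d := by group

theorem D'_le_V : cj x (fixS V c.E) ≤ V := by
  rintro _ ⟨d, hd, rfl⟩
  exact x_conjW c (fm.D_le_W hd)

omit fm in
theorem D'_le_W : cj x (fixS V c.E) ≤ cj x V := Subgroup.map_mono fixS_le

theorem ψ_of_W {v : V} (h : (v : Ω) ∈ cj x V) : Multiplicative.toAdd (fm.ψ v) 1 = 0 := by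
  obtain ⟨a, ha, hav⟩ := fm.dn 1
  have h1 : (fm.ρ.symm (SP.up 1) : MulAut V) v = v := by
    apply Subtype.ext
    rw [hav, Wcomm c a ha v h]
    group
  have h2 := fm.eq' (SP.up 1) v
  rw [h1, up_mulVec] at h2
  have h3 := congrFun h2 0
  simp only [Matrix.cons_val_zero, one_mul, left_eq_add] at h3
  exact h3

theorem exists_D' (hD : Nat.card (fixS V c.E) = Fintype.card K) (w : K) :
    ∃ d : V, (d : Ω) ∈ cj x (fixS V c.E) ∧ Multiplicative.toAdd (fm.ψ d) = ![w, 0] := by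
  have hDV : ∀ d : fixS V c.E, x * (d : Ω) * x⁻¹ ∈ V := fun d => fm.D'_le_V (cj_mem d.2)
  set f : fixS V c.E → K := fun d => Multiplicative.toAdd (fm.ψ ⟨_, hDV d⟩) 0 with hf
  have hinj : Function.Injective f := by
    intro d1 d2 h12
    have e1 := fm.ψ_of_W (v := ⟨_, hDV d1⟩) (D'_le_W (c := c) (cj_mem d1.2))
    have e2 := fm.ψ_of_W (v := ⟨_, hDV d2⟩) (D'_le_W (c := c) (cj_mem d2.2))
    have h3 : fm.ψ (⟨_, hDV d1⟩ * ⟨_, hDV d2⟩⁻¹) = 1 := by
      rw [map_mul, map_inv, mul_inv_eq_one]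
      apply Multiplicative.toAdd.injective
      ext i
      fin_cases i
      · exact h12
      · exact e1.trans e2.symm
    rw [fm.ker] at h3
    have h4 : x * ((d1 : Ω) * (d2 : Ω)⁻¹) * x⁻¹ ∈ fixS V c.E ⊓ cj x (fixS V c.E) := by
      refine ⟨?_, cj_mem (Subgroup.mul_mem _ d1.2 (Subgroup.inv_mem _ d2.2))⟩
      have : x * ((d1 : Ω) * (d2 : Ω)⁻¹) * x⁻¹ = x * (d1 : Ω) * x⁻¹ * (x * (d2 : Ω) * x⁻¹)⁻¹ := by group
      rw [this]
      exact h3
    rw [c.DD, Subgroup.mem_bot] at h4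
    have h5 : (d1 : Ω) * (d2 : Ω)⁻¹ = 1 := by
      have := congrArg (fun z => x⁻¹ * z * x) h4
      simpa [mul_assoc] using this
    exact Subtype.ext (mul_inv_eq_one.1 h5)
  have hfin : Finite (fixS V c.E) := Nat.finite_of_card_ne_zero (by rw [hD]; exact Fintype.card_ne_zero)
  have hbij := (Nat.bijective_iff_injective_and_card f).2 ⟨hinj, by rw [hD, Nat.card_eq_fintype_card]⟩
  obtain ⟨d, hd⟩ := hbij.2 w
  refine ⟨⟨_, hDV d⟩, cj_mem d.2, ?_⟩
  ext i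
  fin_cases i
  · exact hd
  · exact fm.ψ_of_W (v := ⟨_, hDV d⟩) (D'_le_W (c := c) (cj_mem d.2))

/-- elements of `V` with vanishing second coordinate lie in `D D'` -/
theorem exists_DD' (hD : Nat.card (fixS V c.E) = Fintype.card K) {v : V}
    (h : Multiplicative.toAdd (fm.ψ v) 1 = 0) :
    ∃ d ∈ fixS V c.E, ∃ d' ∈ cj x (fixS V c.E), (v : Ω) = d * d' := by
  obtain ⟨d', hd', hd'2⟩ := fm.exists_D' hD (Multiplicative.toAdd (fm.ψ v) 0)
  have h3 : fm.ψ (v * d'⁻¹) = 1 := by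
    rw [map_mul, map_inv, mul_inv_eq_one]
    apply Multiplicative.toAdd.injective
    rw [hd'2]
    ext i
    fin_cases i
    · rfl
    · exact h
  rw [fm.ker] at h3
  exact ⟨_, h3, _, hd', by simp⟩

theorem mem_W_iff (hD : Nat.card (fixS V c.E) = Fintype.card K) (v : V) :
    (v : Ω) ∈ cj x V ↔ Multiplicative.toAdd (fm.ψ v) 1 = 0 := by
  refine ⟨fm.ψ_of_W, fun h => ?_⟩
  obtain ⟨d, hd, d', hd', he⟩ := fm.exists_DD' hD h
  rw [he]
  exact Subgroup.mul_mem _ (fm.D_le_W hd) (D'_le_W (c := c) hd')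

/-- involutions of `T` -/
theorem sq_mem (hT : T = V ⊔ cj x V) (hD : Nat.card (fixS V c.E) = Fintype.card K) {t : Ω} (ht : t ∈ T)
    (h2 : t ^ 2 = 1) : t ∈ V ∨ t ∈ cj x V := by
  obtain ⟨v, hv, a, ha, rfl⟩ := T_decomp c hT ht
  by_cases haV : a ∈ V
  · exact Or.inl (V.mul_mem hv haV)
  right
  obtain ⟨s, hs⟩ := fm.up a ha
  have hs0 : s ≠ 0 := by
    rintro rfl
    apply haV
    apply mem_V_of_comm c (T_le c (W_le_T c ha))
    intro w hw
    have h3 := hs ⟨w, hw⟩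
    rw [up_zero, map_one] at h3
    have h4 : w = a * w * a⁻¹ := h3
    calc a * w = a * w * a⁻¹ * a := by group
      _ = w * a := by rw [← h4]
  have h3 : a * v * a⁻¹ = v := by
    have ha2 : a * a = 1 := by rw [← pow_two]; exact Wsq c a ha
    have hai : a⁻¹ = a := inv_eq_of_mul_eq_one_left ha2
    have hv2 : v * v = 1 := by rw [← pow_two]; exact c.el v hv
    have hvi : v⁻¹ = v := inv_eq_of_mul_eq_one_left hv2
    rw [pow_two] at h2
    rw [hai]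
    have : v⁻¹ * (v * a * (v * a)) = v⁻¹ := by rw [h2, mul_one]
    rw [hvi] at this
    calc a * v * a = v * (v * a * (v * a)) := by
          rw [show v * (v * a * (v * a)) = (v * v) * a * v * a by group, hv2, one_mul]
      _ = v := this
  have h4 : (fm.ρ.symm (SP.up s) : MulAut V) ⟨v, hv⟩ = ⟨v, hv⟩ := Subtype.ext ((hs ⟨v, hv⟩).trans h3)
  have h5 := fm.eq' (SP.up s) ⟨v, hv⟩
  rw [h4, up_mulVec] at h5
  have h6 := congrFun h5 0
  simp only [Matrix.cons_val_zero, left_eq_add, mul_eq_zero, hs0, false_or] at h6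
  exact Subgroup.mul_mem _ ((fm.mem_W_iff hD ⟨v, hv⟩).2 h6) ha

end Frm

/-- Extension of an element of `Aut_F(V)` normalizing `Aut_T(V)` to `T`. -/
theorem exists_lift [Finite S] (hS : IsPGroup 2 S) (hF : F.IsSaturated 2) (c : Conf F K V T x) {γ : MulAut V}
    (hγ : γ ∈ F.autGroup V)
    (h : ∀ t ∈ T, ∃ t' ∈ T, ∀ (v : V) (hv : t * (v : Ω) * t⁻¹ ∈ V), ((γ ⟨t * v * t⁻¹, hv⟩ : V) : Ω) = t' * (γ v : V) * t'⁻¹) :
    ∃ φ ∈ F.Hom T, (∀ v : V, φ ⟨v, V_le_T c v.2⟩ = (γ v : V)) ∧ ∀ t : T, φ t ∈ T := by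
  have hp : Fact (Nat.Prime 2) := ⟨Nat.prime_two⟩
  have hfinV : Finite V := finite_of_le c.V_le
  have hγ' := (mem_autGroup_iff F c.V_le γ).1 hγ
  have hr : (V.subtype.comp γ.toMonoidHom).range = V := range_eq_of_mapsTo hγ' (fun v => (γ v).2)
  obtain ⟨ψ, hψ, hψe⟩ := (isReceptive_of_isFullyNormalized hS hF c.fn).2 V _ hγ' hr
  have hTE : T ≤ extender S V (V.subtype.comp γ.toMonoidHom) := by
    intro t ht
    rw [mem_extender_iff]
    refine ⟨T_le c ht, T_nV c ht, ?_⟩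
    obtain ⟨t', ht', h'⟩ := h t ht
    exact ⟨t', T_le c ht', fun v hv => h' v hv⟩
  refine ⟨_, restrict_mem hψ hTE, ?_, ?_⟩
  · intro v
    exact hψe v v.2 _
  · intro t
    have := apply_mem_normalizerIn (P := V) (Q := V) (φ := V.subtype.comp γ.toMonoidHom) (restrict_mem hψ hTE)
      (V_le_T c) (fun t ht => T_nV c ht) hr (fun v hv => hψe v hv _) t
    rwa [c.nor] at this

/-- the diagonal elements extend to `T` -/
theorem exists_lift_dg [Finite S] (hS : IsPGroup 2 S) (hF : F.IsSaturated 2) (hT : T = V ⊔ cj x V)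
    (fm : Frm c) (r : K) (hr : r ≠ 0) :
    ∃ φ ∈ F.Hom T, (∀ v : V, φ ⟨v, V_le_T c v.2⟩ = ((fm.ρ.symm (dg r hr) : MulAut V) v : V)) ∧
      (∀ t : T, φ t ∈ T) ∧ ∀ (s : K) (t : T), (t : Ω) ∈ cj x V →
        (∀ v : V, (((fm.ρ.symm (SP.up s) : MulAut V) v : V) : Ω) = (t : Ω) * v * (t : Ω)⁻¹) →
        ∀ v : V, (((fm.ρ.symm (SP.up (r ^ 2 * s)) : MulAut V) v : V) : Ω) = φ t * v * (φ t)⁻¹ := by
  have key : ∀ (s : K) (a : Ω), (∀ v : V, (((fm.ρ.symm (SP.up s) : MulAut V) v : V) : Ω) = a * v * a⁻¹) →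
      ∀ (v : V) (hv : a * (v : Ω) * a⁻¹ ∈ V), (fm.ρ.symm (dg r hr) : MulAut V) ⟨a * v * a⁻¹, hv⟩ =
        (fm.ρ.symm (SP.up (r ^ 2 * s)) : MulAut V) ((fm.ρ.symm (dg r hr) : MulAut V) v) := by
    intro s a ha v hv
    have h1 : (⟨a * v * a⁻¹, hv⟩ : V) = (fm.ρ.symm (SP.up s) : MulAut V) v := Subtype.ext (ha v).symm
    have h2 : dg r hr * SP.up s = SP.up (r ^ 2 * s) * dg r hr := by rw [← dg_up r hr s, inv_mul_cancel_right]
    have h3 := congrArg (fun g => ((fm.ρ.symm g : MulAut V) v)) h2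
    simp only [map_mul, Subgroup.coe_mul, MulAut.mul_apply] at h3
    rw [h1, h3]
  obtain ⟨φ, hφ, h1, h2⟩ := exists_lift hS hF c (γ := (fm.ρ.symm (dg r hr) : MulAut V))
    (c.E_le (fm.ρ.symm (dg r hr)).2) (by
      intro t ht
      obtain ⟨v0, hv0, a, ha, rfl⟩ := T_decomp c hT ht
      obtain ⟨s, hs⟩ := fm.up a ha
      obtain ⟨a', ha', hs'⟩ := fm.dn (r ^ 2 * s)
      refine ⟨a', W_le_T c ha', fun v hv => ?_⟩
      have h3 : v0 * a * (v : Ω) * (v0 * a)⁻¹ = a * v * a⁻¹ := by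
        have h4 := T_conj c (W_le_T c ha) v.2
        calc v0 * a * (v : Ω) * (v0 * a)⁻¹ = v0 * (a * v * a⁻¹) * v0⁻¹ := by group
          _ = (a * v * a⁻¹) * v0 * v0⁻¹ := by rw [Vcomm c v0 hv0 _ h4]
          _ = _ := by group
      have hv' : a * (v : Ω) * a⁻¹ ∈ V := T_conj c (W_le_T c ha) v.2
      have h5 : (⟨v0 * a * (v : Ω) * (v0 * a)⁻¹, hv⟩ : V) = ⟨a * v * a⁻¹, hv'⟩ := Subtype.ext h3
      rw [h5, key s a hs v hv', hs'])
  refine ⟨φ, hφ, h1, h2, ?_⟩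
  intro s t ht hs v
  obtain ⟨w, rfl⟩ := (fm.ρ.symm (dg r hr) : MulAut V).surjective v
  have hv' : (t : Ω) * (w : Ω) * (t : Ω)⁻¹ ∈ V := T_conj c t.2 w.2
  rw [← key s t hs w hv', ← h1, ← h1]
  have : (⟨((⟨(t : Ω) * w * (t : Ω)⁻¹, hv'⟩ : V) : Ω), V_le_T c hv'⟩ : T) = t * ⟨w, V_le_T c w.2⟩ * t⁻¹ := rfl
  rw [this, map_mul, map_mul, map_inv]

/-- the extension normalizes `W = V^x` -/
theorem lift_W (hT : T = V ⊔ cj x V) (fm : Frm c) (hD : Nat.card (fixS V c.E) = Fintype.card K)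
    {φ : T →* Ω} (hφ : φ ∈ F.Hom T) (h1 : ∀ v : V, φ ⟨v, V_le_T c v.2⟩ ∈ V) (h2 : ∀ t : T, φ t ∈ T) [Finite S] :
    ∀ t : T, (t : Ω) ∈ cj x V → φ t ∈ cj x V := by
  have hfinV : Finite V := finite_of_le c.V_le
  have hinj := F.injective_of_mem hφ
  have hmem : ∀ t : T, (t : Ω) ∈ cj x V → φ t ∈ V ∨ φ t ∈ cj x V := by
    intro t ht
    apply fm.sq_mem hT hD (h2 t)
    rw [← map_pow]
    have : t ^ 2 = 1 := Subtype.ext (Wsq c _ ht)
    rw [this, map_one]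
  -- not all in `V`
  obtain ⟨a, ha, hav⟩ := fm.dn 1
  have haV : a ∉ V := by
    intro haV
    have h3 : ∀ v : V, (fm.ρ.symm (SP.up 1) : MulAut V) v = v := by
      intro v
      apply Subtype.ext
      rw [hav, Vcomm c a haV v v.2]
      group
    have h4 : fm.ρ.symm (SP.up 1) = 1 := Subtype.ext (MulEquiv.ext h3)
    have h5 : SP.up (1 : K) = 1 := by
      rw [← map_one fm.ρ.symm] at h4
      exact fm.ρ.symm.injective h4
    rw [← up_zero] at h5
    exact one_ne_zero (up_inj h5)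
  -- `φ` maps `V` onto `V`
  have hsurj : ∀ v ∈ V, ∃ v' : V, φ ⟨v', V_le_T c v'.2⟩ = v := by
    have hi : Function.Injective (fun v : V => (⟨φ ⟨v, V_le_T c v.2⟩, h1 v⟩ : V)) := by
      intro v v' hvv
      have h3 : φ ⟨v, V_le_T c v.2⟩ = φ ⟨v', V_le_T c v'.2⟩ := congrArg Subtype.val hvv
      have h4 := congrArg Subtype.val (hinj h3)
      exact Subtype.ext h4
    have hb := Finite.surjective_of_injective hi
    intro v hv
    obtain ⟨v', hv'⟩ := hb ⟨v, hv⟩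
    exact ⟨v', congrArg Subtype.val hv'⟩
  have hnot : φ ⟨a, W_le_T c ha⟩ ∉ V := by
    intro h
    obtain ⟨v', hv'⟩ := hsurj _ h
    have := congrArg Subtype.val (hinj hv')
    have h6 : (v' : Ω) = a := this
    exact haV (h6 ▸ v'.2)
  have haW : φ ⟨a, W_le_T c ha⟩ ∈ cj x V := (hmem _ ha).resolve_left hnot
  intro t ht
  by_contra htW
  have htV : φ t ∈ V := (hmem t ht).resolve_right htW
  rcases hmem (t * ⟨a, W_le_T c ha⟩) (Subgroup.mul_mem _ ht ha) with h | h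
  · rw [map_mul] at h
    exact hnot ((Subgroup.mul_mem_cancel_left V htV).1 h)
  · rw [map_mul] at h
    exact htW ((Subgroup.mul_mem_cancel_right (cj x V) haW).1 h)

end Cfsg.Agent.H869.SP
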