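import Mathlib
import Cfsg.Agent.H869.SP.Lift

/-!
# S5175, SP1: coordinates
-/

set_option autoImplicit false

namespace Cfsg.Agent.H869.SP

open Cfsg Cfsg.FusionSystem Cfsg.Agent.H756.HM Cfsg.Agent.H802
open Matrix (SpecialLinearGroup)

universe u

theorem field_aut {K : Type*} [Field K] [CharP K 2] (β τ : K → K) (hadd : ∀ a b, β (a + b) = β a + β b)
    (hb : Function.Bijective β) (h1 : β 1 = 1) (R : ∀ u' u, τ (β u' * u) = β u ^ 2 * u') :
    ∃ θ : K ≃+* K, (∀ u, β (θ u) = u) ∧ (∀ u, θ (θ u) = u ^ 2) ∧ ∀ u, τ u = θ u := by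
  have hτ : ∀ u, τ u = β u ^ 2 := fun u => by
    have := R 1 u
    rwa [h1, one_mul, mul_one] at this
  have hsq : ∀ a b : K, a ^ 2 = b ^ 2 → a = b := fun a b hab => by
    have : frobenius K 2 a = frobenius K 2 b := by rw [frobenius_def, frobenius_def, hab]
    exact frobenius_inj K 2 this
  have hββ : ∀ u, β (β u) ^ 2 = u := fun u => by
    have := R u 1
    rwa [h1, one_pow, one_mul, mul_one, hτ] at this
  have hmul : ∀ a b, β (a * b) = β a * β b := by
    intro a b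
    obtain ⟨a', rfl⟩ := hb.2 a
    apply hsq
    have := R a' b
    rw [hτ] at this
    rw [this, mul_pow, hββ]
    ring
  let B : K ≃+* K := RingEquiv.ofBijective
    ({ toFun := β, map_one' := h1, map_mul' := hmul, map_add' := hadd,
       map_zero' := by
        have := hadd 0 0
        rw [add_zero] at this
        exact (left_eq_add.1 this) } : K →+* K) hb
  have hB : ∀ u, B u = β u := fun _ => rfl
  have hθ : ∀ u, B.symm u = β u ^ 2 := fun u => by
    rw [RingEquiv.symm_apply_eq, map_pow, hB, hββ]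
  refine ⟨B.symm, fun u => ?_, fun u => ?_, fun u => ?_⟩
  · rw [← hB, RingEquiv.apply_symm_apply]
  · have : B.symm (B.symm u) = B.symm (β u) ^ 2 := by rw [hθ u, map_pow]
    rw [this, ← hB, RingEquiv.symm_apply_apply]
  · rw [hτ, hθ]

theorem fr_surjective {K : Type*} [Field K] [Finite K] [CharP K 2] :
    Function.Surjective (fr : SpecialLinearGroup (Fin 2) K →* SpecialLinearGroup (Fin 2) K) := by
  have : Finite (SpecialLinearGroup (Fin 2) K) := inferInstance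
  apply Finite.surjective_of_injective
  intro a b hab
  ext i j
  have h1 : fr a i j = fr b i j := by rw [hab]
  rw [fr_apply, fr_apply] at h1
  have : frobenius K 2 (a i j) = frobenius K 2 (b i j) := by rw [frobenius_def, frobenius_def, h1]
  exact frobenius_inj K 2 this

variable {Ω : Type u} [Group Ω] {S : Subgroup Ω}
  {F : FusionSystem S} {K : Type} [Field K] [Fintype K] {V T : Subgroup Ω} {x : Ω}

/-- transport of a map on `T` normalizing `W` back to `V` -/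
theorem exists_back [Finite S] (c : Conf F K V T x) {φ : T →* Ω} (hφ : φ ∈ F.Hom T)
    (hW : ∀ t : T, (t : Ω) ∈ cj x V → φ t ∈ cj x V) :
    ∃ α ∈ F.autGroup V, ∀ (v : V) (h : x * (v : Ω) * x⁻¹ ∈ T), x * ((α v : V) : Ω) * x⁻¹ = φ ⟨x * v * x⁻¹, h⟩ := by
  have hfinV : Finite V := finite_of_le c.V_le
  have h0 : conjHom V x ∈ F.Hom V := F.conj_mem c.V_le c.x_mem
  obtain ⟨χ, hχ, hχe⟩ := exists_comp h0 hφ (fun v => W_le_T c (cj_mem v.2))
  have h1 : conjHom (cj x V) x⁻¹ ∈ F.Hom (cj x V) :=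
    F.conj_mem ((W_le_T c).trans (T_le c)) (S.inv_mem c.x_mem)
  obtain ⟨χ', hχ', hχe'⟩ := exists_comp hχ h1 (fun v => by
    rw [hχe]
    exact hW _ (cj_mem v.2))
  have hr : χ'.range = V := range_eq_of_mapsTo hχ' (fun v => by
    rw [hχe']
    have h2 : χ v ∈ cj x V := by
      rw [hχe]
      exact hW _ (cj_mem v.2)
    show x⁻¹ * χ v * x⁻¹⁻¹ ∈ V
    rw [inv_inv]
    exact mem_cj.1 h2)
  obtain ⟨α, hα, hαe⟩ := exists_aut hχ' hr
  refine ⟨α, hα, fun v h => ?_⟩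
  rw [hαe, hχe']
  show x * (x⁻¹ * χ v * x⁻¹⁻¹) * x⁻¹ = _
  rw [hχe]
  show x * (x⁻¹ * φ ⟨x * v * x⁻¹, _⟩ * x⁻¹⁻¹) * x⁻¹ = _
  group

theorem aut_D (c : Conf F K V T x) (hE : ∀ a ∈ F.autGroup V, ∀ e ∈ c.E, a * e * a⁻¹ ∈ c.E) {α : MulAut V}
    (hα : α ∈ F.autGroup V) {v : V} (hv : (v : Ω) ∈ fixS V c.E) : ((α v : V) : Ω) ∈ fixS V c.E := by
  rw [mem_fixS] at hv ⊢
  intro e he
  have h1 := hE _ (Subgroup.inv_mem _ hα) e he
  have h2 := hv _ h1
  have h3 : α ((α⁻¹ * e * α⁻¹⁻¹) v) = e (α v) := by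
    simp only [inv_inv, MulAut.mul_apply]
    exact α.apply_symm_apply _
  rw [← h3, h2]

theorem charTwo_of (c : Conf F K V T x) : CharP K 2 := by
  obtain ⟨p, hp⟩ := CharP.exists K
  have hp' : p.Prime := (CharP.char_is_prime_or_zero K p).resolve_right
    (fun h0 => by subst h0; exact CharP.char_ne_zero_of_finite K 0 rfl)
  obtain ⟨k, hk1, hk2⟩ := FiniteField.card K p
  have : p = 2 := by
    have h1 : p ∣ 2 ^ c.n := by
      rw [← c.hK, hk2]
      exact dvd_pow_self p k.pos.ne'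
    exact (Nat.prime_dvd_prime_iff_eq hp' Nat.prime_two).mp (hp'.dvd_of_dvd_pow h1)
  exact this ▸ hp

/-- the lifts of the diagonal elements normalize `D' = D^x` -/
theorem dg_D' [Finite S] (hS : IsPGroup 2 S) (hF : F.IsSaturated 2) (c : Conf F K V T x)
    (hT : T = V ⊔ cj x V) (hE : ∀ a ∈ F.autGroup V, ∀ e ∈ c.E, a * e * a⁻¹ ∈ c.E)
    (fm : Frm c) (hD : Nat.card (fixS V c.E) = Fintype.card K) (r : K) (hr : r ≠ 0) (v : V)
    (hv : (v : Ω) ∈ cj x (fixS V c.E)) :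
    (((fm.ρ.symm (dg r hr) : MulAut V) v : V) : Ω) ∈ cj x (fixS V c.E) := by
  obtain ⟨φ, hφ, h1, h2, -⟩ := exists_lift_dg hS hF hT fm r hr
  have hW := lift_W hT fm hD hφ (fun v => by rw [h1]; exact Subtype.coe_prop _) h2
  obtain ⟨α, hα, hαe⟩ := exists_back c hφ hW
  obtain ⟨v', hv'⟩ := v
  obtain ⟨d, hd, hdv⟩ := hv
  have hdv' : x * d * x⁻¹ = v' := hdv
  subst hdv'
  have hdT : x * d * x⁻¹ ∈ T := V_le_T c hv'
  rw [← h1]
  have h3 := hαe ⟨d, fixS_le hd⟩ hdT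
  show φ ⟨x * d * x⁻¹, _⟩ ∈ _
  rw [← h3]
  exact cj_mem (aut_D c hE hα hd)

/-- **Coordinates on `V`.** -/
theorem exists_coordsV [Finite S] [CharP K 2] (hS : IsPGroup 2 S) (hF : F.IsSaturated 2) (c : Conf F K V T x)
    (hT : T = V ⊔ cj x V) (hE : ∀ a ∈ F.autGroup V, ∀ e ∈ c.E, a * e * a⁻¹ ∈ c.E) (h4 : 4 ≤ Fintype.card K)
    (fm : Frm c) (hD : Nat.card (fixS V c.E) = Fintype.card K) (hcom : comS V c.E = V) :
    ∃ (σ : K → K → V) (δ : K → V),
      (∀ w u w' u', σ (w + w') (u + u') = σ w u * σ w' u') ∧ (∀ v v', δ (v + v') = δ v * δ v') ∧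
      (∀ w u, Multiplicative.toAdd (fm.ψ (σ w u)) = ![w, u]) ∧ (∀ v, (δ v : Ω) ∈ fixS V c.E) ∧
      (∀ w, (σ w 0 : Ω) ∈ cj x (fixS V c.E)) ∧
      (∀ (g : SpecialLinearGroup (Fin 2) K) (w u : K), (fm.ρ.symm (fr g) : MulAut V) (σ w u) =
        σ (g 0 0 ^ 2 * w + g 0 1 ^ 2 * u) (g 1 0 ^ 2 * w + g 1 1 ^ 2 * u) *
          δ (g 0 0 * g 1 0 * w + g 0 1 * g 1 1 * u)) ∧
      (∀ d ∈ fixS V c.E, ∃ v, (δ v : Ω) = d) ∧ Function.Injective δ ∧
      (∀ d ∈ cj x (fixS V c.E), ∃ w, (σ w 0 : Ω) = d) := by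
  classical
  have hfinV : Finite V := finite_of_le c.V_le
  have hc : ∀ a b : V, a * b = b * a := fun a b => Subtype.ext (Vcomm c a a.2 b b.2)
  have h2 : ∀ a : V, a * a = 1 := fun a => Subtype.ext (by
    show (a : Ω) * a = 1
    rw [← pow_two]
    exact c.el a a.2)
  obtain ⟨r, hr, hr1⟩ : ∃ r : K, r ≠ 0 ∧ r ≠ 1 := by
    by_contra hno
    push Not at hno
    have : (Finset.univ : Finset K) ⊆ {0, 1} := by
      intro r _
      by_cases hr : r = 0
      · simp [hr]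
      · simp [hno r hr]
    have h5 := Finset.card_le_card this
    have h6 : ({0, 1} : Finset K).card ≤ 2 := Finset.card_le_two
    rw [Finset.card_univ] at h5
    omega
  have hinD : ∀ v : V, (v : Ω) ∈ cj x (fixS V c.E) → fm.ψ v = 1 → v = 1 := by
    intro v h1 h3
    rw [fm.ker] at h3
    have h5 : (v : Ω) ∈ fixS V c.E ⊓ cj x (fixS V c.E) := ⟨h3, h1⟩
    rw [c.DD, Subgroup.mem_bot] at h5
    exact Subtype.ext h5
  set D' : Subgroup V := (cj x (fixS V c.E)).subgroupOf V with hD'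
  have hD1 : ∀ d ∈ D', ∃ d' ∈ D', (fm.ρ.symm (dg r hr) : MulAut V) d' * d'⁻¹ = d := by
    have hmem : ∀ d : D', (fm.ρ.symm (dg r hr) : MulAut V) d * (d : V)⁻¹ ∈ D' := fun d =>
      D'.mul_mem (dg_D' hS hF c hT hE fm hD r hr d d.2) (D'.inv_mem d.2)
    have hinj : Function.Injective (fun d : D' => (⟨_, hmem d⟩ : D')) := by
      intro d1 d2 h12
      have h3 : (fm.ρ.symm (dg r hr) : MulAut V) d1 * (d1 : V)⁻¹ =
        (fm.ρ.symm (dg r hr) : MulAut V) d2 * (d2 : V)⁻¹ := congrArg Subtype.val h12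
      set M := (fm.ρ.symm (dg r hr) : MulAut V) with hM
      have h5 : M ((d1 : V) * (d2 : V)⁻¹) = (d1 : V) * (d2 : V)⁻¹ := by
        rw [map_mul, map_inv]
        have h6 : M d1 = M d2 * (d2 : V)⁻¹ * d1 := by rw [← h3]; group
        rw [h6, mul_assoc (M d2), hc (M (d2 : V)), mul_assoc, mul_inv_cancel, mul_one, hc]
      have h6 := fm.eq' (dg r hr) ((d1 : V) * (d2 : V)⁻¹)
      rw [← hM, h5, dg_mulVec] at h6
      have h7 : fm.ψ ((d1 : V) * (d2 : V)⁻¹) = 1 := by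
        apply Multiplicative.toAdd.injective
        ext i
        have e0 := congrFun h6 0
        have e1 := congrFun h6 1
        simp only [Matrix.cons_val_zero, Matrix.cons_val_one] at e0 e1
        fin_cases i
        · show Multiplicative.toAdd (fm.ψ ((d1 : V) * (d2 : V)⁻¹)) 0 = 0
          by_contra h0
          exact hr1 (mul_right_cancel₀ h0 (by rw [one_mul]; exact e0.symm))
        · show Multiplicative.toAdd (fm.ψ ((d1 : V) * (d2 : V)⁻¹)) 1 = 0
          by_contra h0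
          exact hr1 (inv_eq_one.1 (mul_right_cancel₀ h0 (by rw [one_mul]; exact e1.symm)))
      have h8 := hinD ((d1 : V) * (d2 : V)⁻¹) (D'.mul_mem d1.2 (D'.inv_mem d2.2)) h7
      exact Subtype.ext (mul_inv_eq_one.1 h8)
    have hsurj := Finite.surjective_of_injective hinj
    intro d hd
    obtain ⟨d', hd'⟩ := hsurj ⟨d, hd⟩
    exact ⟨d', d'.2, congrArg Subtype.val hd'⟩
  have hD2 : ∀ d ∈ D', ∀ t, (fm.ρ.symm (up t) : MulAut V) d = d := by
    intro d hd t
    obtain ⟨a, ha, hav⟩ := fm.dn t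
    apply Subtype.ext
    rw [hav, Wcomm c a ha d (Frm.D'_le_W (c := c) hd)]
    group
  have hD3 : ∀ w, ∃ d ∈ D', Multiplicative.toAdd (fm.ψ d) = ![w, 0] := fun w => fm.exists_D' hD w
  obtain ⟨σ, δ, hσ, hδ, hσψ, hδψ, hσ0, hform⟩ := exists_coords hc h2 c.E fm.ρ fm.ψ fm.surj
    (fun v hv => (mem_fixS v).1 ((fm.ker v).1 hv)) fm.eq r hr hr1 D' hD1 hD2 hD3
  have hδD : ∀ v, (δ v : Ω) ∈ fixS V c.E := fun v => (fm.ker _).1 (hδψ v)
  have hσ00 : σ 0 0 = 1 := by
    have := hσ 0 0 0 0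
    rw [add_zero] at this
    exact (mul_eq_left.1 this.symm)
  have hσinv : ∀ w u, (σ w u)⁻¹ = σ w u := fun w u => inv_eq_of_mul_eq_one_left (h2 _)
  -- the subgroup generated
  set N : Subgroup V :=
    { carrier := {v | ∃ w u v', v = σ w u * δ v'}
      mul_mem' := by
        rintro _ _ ⟨w, u, v, rfl⟩ ⟨w', u', v', rfl⟩
        refine ⟨w + w', u + u', v + v', ?_⟩
        rw [hσ, hδ]
        calc σ w u * δ v * (σ w' u' * δ v') = σ w u * (δ v * σ w' u') * δ v' := by group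
          _ = σ w u * (σ w' u' * δ v) * δ v' := by rw [hc (δ v)]
          _ = _ := by group
      one_mem' := ⟨0, 0, 0, by
        have h5 : δ 0 = 1 := by
          have := hδ 0 0
          rw [add_zero] at this
          exact (mul_eq_left.1 this.symm)
        rw [hσ00, h5, mul_one]⟩
      inv_mem' := by
        rintro _ ⟨w, u, v, rfl⟩
        refine ⟨w, u, v, ?_⟩
        exact inv_eq_of_mul_eq_one_left (h2 _) } with hN
  have hNtop : ∀ v : V, v ∈ N := by
    intro v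
    have h5 : comS V c.E ≤ N.map V.subtype := by
      apply Subgroup.map_mono
      rw [Subgroup.closure_le]
      rintro _ ⟨v, e, he, rfl⟩
      obtain ⟨g, hg⟩ := fr_surjective (fm.ρ ⟨e, he⟩)
      have hge : (fm.ρ.symm (fr g) : MulAut V) = e := by rw [hg, MulEquiv.symm_apply_apply]
      set w := Multiplicative.toAdd (fm.ψ v) 0 with hw
      set u := Multiplicative.toAdd (fm.ψ v) 1 with hu
      have hψd : fm.ψ (v * (σ w u)⁻¹) = 1 := by
        rw [map_mul, map_inv, mul_inv_eq_one]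
        apply Multiplicative.toAdd.injective
        rw [hσψ]
        ext i
        fin_cases i <;> rfl
      rw [fm.ker] at hψd
      have h6 := (mem_fixS _).1 hψd e he
      have h7 : v = (v * (σ w u)⁻¹) * σ w u := by group
      have h8 : e v = (v * (σ w u)⁻¹) * e (σ w u) := by
        conv_lhs => rw [h7]
        rw [map_mul, h6]
      refine ⟨w + (g 0 0 ^ 2 * w + g 0 1 ^ 2 * u), u + (g 1 0 ^ 2 * w + g 1 1 ^ 2 * u),
        g 0 0 * g 1 0 * w + g 0 1 * g 1 1 * u, ?_⟩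
      have h9 : σ (w + (g 0 0 ^ 2 * w + g 0 1 ^ 2 * u)) (u + (g 1 0 ^ 2 * w + g 1 1 ^ 2 * u)) =
        σ w u * σ (g 0 0 ^ 2 * w + g 0 1 ^ 2 * u) (g 1 0 ^ 2 * w + g 1 1 ^ 2 * u) := hσ _ _ _ _
      rw [h8, ← hge, hform, h9, hσinv]
      group
    have h6 : (v : Ω) ∈ comS V c.E := by
      rw [hcom]
      exact v.2
    obtain ⟨v', hv', hvv⟩ := h5 h6
    have : v' = v := Subtype.ext hvv
    rw [← this]
    exact hv'
  have hδs : ∀ d ∈ fixS V c.E, ∃ v, (δ v : Ω) = d := by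
    intro d hd
    obtain ⟨w, u, v', he⟩ := hNtop ⟨d, fixS_le hd⟩
    have h5 : fm.ψ (σ w u * δ v') = 1 := by rw [← he, fm.ker]; exact hd
    rw [map_mul, hδψ, mul_one] at h5
    have h6 := hσψ w u
    rw [h5] at h6
    have e0 : (0 : K) = w := congrFun h6 0
    have e1 : (0 : K) = u := congrFun h6 1
    refine ⟨v', ?_⟩
    rw [← e0, ← e1, hσ00, one_mul] at he
    exact (congrArg Subtype.val he).symm
  have hδi : Function.Injective δ := by
    have hfD : Finite (fixS V c.E) := finite_of_le (fixS_le.trans c.V_le)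
    have hs : Function.Surjective (fun v : K => (⟨δ v, hδD v⟩ : fixS V c.E)) := by
      rintro ⟨d, hd⟩
      obtain ⟨v, hv⟩ := hδs d hd
      exact ⟨v, Subtype.ext hv⟩
    have hb := (Nat.bijective_iff_surjective_and_card (fun v : K => (⟨δ v, hδD v⟩ : fixS V c.E))).2
      ⟨hs, by rw [hD, Nat.card_eq_fintype_card]⟩
    intro a b hab
    exact hb.1 (show (⟨δ a, hδD a⟩ : fixS V c.E) = ⟨δ b, hδD b⟩ from
      Subtype.ext (show (δ a : Ω) = δ b by rw [hab]))
  refine ⟨σ, δ, hσ, hδ, hσψ, hδD, hσ0, hform, hδs, hδi, ?_⟩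
  intro d hd
  have hdV := fm.D'_le_V hd
  refine ⟨Multiplicative.toAdd (fm.ψ ⟨d, hdV⟩) 0, ?_⟩
  have h5 : σ (Multiplicative.toAdd (fm.ψ ⟨d, hdV⟩) 0) 0 * (⟨d, hdV⟩ : V)⁻¹ = 1 := by
    apply hinD
    · exact Subgroup.mul_mem _ (hσ0 _) (Subgroup.inv_mem _ hd)
    · rw [map_mul, map_inv, mul_inv_eq_one]
      apply Multiplicative.toAdd.injective
      rw [hσψ]
      ext i
      fin_cases i
      · rfl
      · exact (fm.ψ_of_W (v := ⟨d, hdV⟩) (Frm.D'_le_W (c := c) hd)).symm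
  exact congrArg Subtype.val (mul_inv_eq_one.1 h5)

end Cfsg.Agent.H869.SP
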