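import Mathlib

/-!
# S5175, SP1: linear algebra

Coordinates on the indecomposable `SL₂(K)`-module `V` with `V / D` natural and `D` trivial, `|D| = |K|`.
-/

set_option autoImplicit false

namespace Cfsg.Agent.H869.SP

open Matrix

variable {K : Type*} [Field K]

/-- the upper root element -/
def up (t : K) : SpecialLinearGroup (Fin 2) K := ⟨!![1, t; 0, 1], by simp [Matrix.det_fin_two]⟩

/-- the diagonal elements -/
def dg (r : K) (hr : r ≠ 0) : SpecialLinearGroup (Fin 2) K :=
  ⟨!![r, 0; 0, r⁻¹], by simp [Matrix.det_fin_two, hr]⟩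

/-- the Weyl element (characteristic 2) -/
def wy [CharP K 2] : SpecialLinearGroup (Fin 2) K :=
  ⟨!![0, 1; 1, 0], by simp [Matrix.det_fin_two, CharTwo.neg_eq]⟩

@[simp] theorem coe_up (t : K) : (up t : Matrix (Fin 2) (Fin 2) K) = !![1, t; 0, 1] := rfl
@[simp] theorem coe_dg (r : K) (hr : r ≠ 0) : (dg r hr : Matrix (Fin 2) (Fin 2) K) = !![r, 0; 0, r⁻¹] := rfl
@[simp] theorem coe_wy [CharP K 2] : ((wy : SpecialLinearGroup (Fin 2) K) : Matrix (Fin 2) (Fin 2) K) = !![0, 1; 1, 0] := rfl

theorem up_add (t t' : K) : up (t + t') = up t * up t' := by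
  ext i j
  fin_cases i <;> fin_cases j <;> simp [add_comm]

theorem up_zero : up (0 : K) = 1 := by
  ext i j
  fin_cases i <;> fin_cases j <;> simp

theorem up_inj {t t' : K} (h : up t = up t') : t = t' := by
  have := congrArg (fun g : SpecialLinearGroup (Fin 2) K => g 0 1) h
  simpa using this

theorem dg_up (r : K) (hr : r ≠ 0) (t : K) : dg r hr * up t * (dg r hr)⁻¹ = up (r ^ 2 * t) := by
  rw [mul_inv_eq_iff_eq_mul]
  ext i j
  fin_cases i <;> fin_cases j <;> simp
  field_simp

/-- Bruhat decomposition as an induction principle -/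
theorem sl_induction [CharP K 2] {p : SpecialLinearGroup (Fin 2) K → Prop}
    (hu : ∀ t, p (up t)) (hd : ∀ r hr, p (dg r hr)) (hw : p wy) (hm : ∀ a b, p a → p b → p (a * b))
    (g : SpecialLinearGroup (Fin 2) K) : p g := by
  have hdet : g 0 0 * g 1 1 - g 0 1 * g 1 0 = 1 := by
    have := g.det_coe
    rwa [Matrix.det_fin_two] at this
  by_cases hs : g 1 0 = 0
  · rw [hs, mul_zero, sub_zero] at hdet
    have h0 : g 0 0 ≠ 0 := fun h => by rw [h, zero_mul] at hdet; exact zero_ne_one hdet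
    have h1 : g 1 1 = (g 0 0)⁻¹ := eq_inv_of_mul_eq_one_left (by rw [mul_comm]; exact hdet)
    have : g = dg (g 0 0) h0 * up (g 0 1 / g 0 0) := by
      ext i j
      fin_cases i <;> fin_cases j
      · simp
      · simp
        field_simp
      · simp [hs]
      · simp [h1]
    rw [this]
    exact hm _ _ (hd _ _) (hu _)
  · have : g = up (g 0 0 / g 1 0) * (wy * dg (g 1 0) hs) * up (g 1 1 / g 1 0) := by
      ext i j
      fin_cases i <;> fin_cases j
      · simp
        field_simp
      · simp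
        field_simp
        have h2 : g 0 1 * g 1 0 = g 0 0 * g 1 1 - 1 := by linear_combination -hdet
        rw [h2, sub_eq_add_neg, CharTwo.neg_eq]
        try ring
      · simp
      · simp
        field_simp
    rw [this]
    exact hm _ _ (hm _ _ (hu _) (hm _ _ hw (hd _ _))) (hu _)

/-- A subgroup of order `|K|` of `SL₂(K)`, `|K| = 2ⁿ`, is conjugate to the upper unitriangular group. -/
theorem exists_conj_up [Fintype K] {n : ℕ} (hn : 1 ≤ n) (hK : Fintype.card K = 2 ^ n)
    (A : Subgroup (SpecialLinearGroup (Fin 2) K)) (hA : Nat.card A = Fintype.card K) :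
    ∃ M : SpecialLinearGroup (Fin 2) K, (∀ a ∈ A, ∃ t, M⁻¹ * a * M = up t) ∧ ∀ t, M * up t * M⁻¹ ∈ A := by
  classical
  have hp : Fact (Nat.Prime 2) := ⟨Nat.prime_two⟩
  have hAp : IsPGroup 2 A := IsPGroup.of_card (hA.trans hK)
  let act : MulAction A (Fin 2 → K) :=
    { smul := fun a v => ((a : SpecialLinearGroup (Fin 2) K) : Matrix (Fin 2) (Fin 2) K).mulVec v
      one_smul := fun v => by
        show (((1 : A) : SpecialLinearGroup (Fin 2) K) : Matrix (Fin 2) (Fin 2) K).mulVec v = v
        simp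
      mul_smul := fun a b v => by
        show (((a * b : A) : SpecialLinearGroup (Fin 2) K) : Matrix (Fin 2) (Fin 2) K).mulVec v =
          ((a : SpecialLinearGroup (Fin 2) K) : Matrix (Fin 2) (Fin 2) K).mulVec
            (((b : SpecialLinearGroup (Fin 2) K) : Matrix (Fin 2) (Fin 2) K).mulVec v)
        rw [Matrix.mulVec_mulVec, Subgroup.coe_mul, Matrix.SpecialLinearGroup.coe_mul] }
  have hsm : ∀ (a : A) (v : Fin 2 → K), a • v =
      ((a : SpecialLinearGroup (Fin 2) K) : Matrix (Fin 2) (Fin 2) K).mulVec v := fun _ _ => rfl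
  have hfinA : Finite A := Nat.finite_of_card_ne_zero (by rw [hA, hK]; positivity)
  obtain ⟨v, hv, hv0⟩ : ∃ v : Fin 2 → K, v ∈ MulAction.fixedPoints A (Fin 2 → K) ∧ v ≠ 0 := by
    have h1 : (0 : Fin 2 → K) ∈ MulAction.fixedPoints A (Fin 2 → K) := fun a => by
      rw [hsm, Matrix.mulVec_zero]
    obtain ⟨v, hv, hne⟩ := hAp.exists_fixed_point_of_prime_dvd_card_of_fixed_point (Fin 2 → K)
      (by
        rw [Nat.card_eq_fintype_card, Fintype.card_pi]
        simp only [Fin.prod_univ_two, hK]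
        exact dvd_mul_of_dvd_left (dvd_pow_self 2 (by omega)) _) h1
    exact ⟨v, hv, hne.symm⟩
  have hv' : ∀ a ∈ A, (a : Matrix (Fin 2) (Fin 2) K).mulVec v = v := fun a ha => hv ⟨a, ha⟩
  -- a matrix moving `e₁` to `v`
  obtain ⟨M, hM⟩ : ∃ M : SpecialLinearGroup (Fin 2) K, (M : Matrix (Fin 2) (Fin 2) K).mulVec ![1, 0] = v := by
    by_cases h0 : v 0 = 0
    · have h1 : v 1 ≠ 0 := fun h => hv0 (by ext i; fin_cases i <;> simp [h0, h])
      refine ⟨⟨!![0, -(v 1)⁻¹; v 1, 0], by simp [Matrix.det_fin_two, h1]⟩, ?_⟩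
      ext i
      fin_cases i <;> simp [Matrix.mulVec, dotProduct, Fin.sum_univ_two, h0]
    · refine ⟨⟨!![v 0, 0; v 1, (v 0)⁻¹], by simp [Matrix.det_fin_two, h0]⟩, ?_⟩
      ext i
      fin_cases i <;> simp [Matrix.mulVec, dotProduct, Fin.sum_univ_two]
  have hMi : ((M⁻¹ : SpecialLinearGroup (Fin 2) K) : Matrix (Fin 2) (Fin 2) K).mulVec v = ![1, 0] := by
    rw [← hM, Matrix.mulVec_mulVec, ← Matrix.SpecialLinearGroup.coe_mul, inv_mul_cancel,
      Matrix.SpecialLinearGroup.coe_one, Matrix.one_mulVec]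
  have key : ∀ a ∈ A, ∃ t, M⁻¹ * a * M = up t := by
    intro a ha
    set b := M⁻¹ * a * M with hb
    have h1 : (b : Matrix (Fin 2) (Fin 2) K).mulVec ![1, 0] = ![1, 0] := by
      rw [hb, Matrix.SpecialLinearGroup.coe_mul, Matrix.SpecialLinearGroup.coe_mul, ← Matrix.mulVec_mulVec,
        hM, ← Matrix.mulVec_mulVec, hv' a ha, hMi]
    have h00 : b 0 0 = 1 := by
      have := congrFun h1 0
      simpa [Matrix.mulVec, dotProduct, Fin.sum_univ_two] using this
    have h10 : b 1 0 = 0 := by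
      have := congrFun h1 1
      simpa [Matrix.mulVec, dotProduct, Fin.sum_univ_two] using this
    have hdet : b 0 0 * b 1 1 - b 0 1 * b 1 0 = 1 := by
      have := b.det_coe
      rwa [Matrix.det_fin_two] at this
    have h11 : b 1 1 = 1 := by simpa [h00, h10] using hdet
    refine ⟨b 0 1, ?_⟩
    ext i j
    fin_cases i <;> fin_cases j
    · simpa using h00
    · simp
    · simpa using h10
    · simpa using h11
  refine ⟨M, key, ?_⟩
  choose! τ hτ using key
  have hinj : Function.Injective (fun a : A => τ a) := by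
    intro a b hab
    have h1 := hτ a a.2
    have h2 := hτ b b.2
    have h3 : τ (a : SpecialLinearGroup (Fin 2) K) = τ b := hab
    rw [h3, ← h2] at h1
    exact Subtype.ext (mul_left_cancel (mul_right_cancel h1))
  have hbij := (Nat.bijective_iff_injective_and_card (fun a : A => τ a)).2
    ⟨hinj, by rw [hA, Nat.card_eq_fintype_card]⟩
  intro t
  obtain ⟨a, ha⟩ := hbij.2 t
  have h1 := hτ a a.2
  have h3 : τ (a : SpecialLinearGroup (Fin 2) K) = t := ha
  rw [h3] at h1
  rw [← h1]
  have : M * (M⁻¹ * (a : SpecialLinearGroup (Fin 2) K) * M) * M⁻¹ = a := by group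
  rw [this]
  exact a.2

end Cfsg.Agent.H869.SP
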