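import Mathlib
import Cfsg.Agent.H869.SP.Lin

/-!
# S5175, SP1: coordinates on the module `V`
-/

set_option autoImplicit false

namespace Cfsg.Agent.H869.SP

open Matrix (SpecialLinearGroup)

section

variable {K : Type*} [Field K] [CharP K 2]

/-- the Frobenius endomorphism of `SL₂(K)` -/
def fr : SpecialLinearGroup (Fin 2) K →* SpecialLinearGroup (Fin 2) K :=
  SpecialLinearGroup.map (frobenius K 2)

theorem fr_apply (g : SpecialLinearGroup (Fin 2) K) (i j : Fin 2) : fr g i j = g i j ^ 2 := by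
  simp [fr, frobenius_def]

theorem fr_up (t : K) : fr (up t) = up (t ^ 2) := by
  ext i j
  rw [fr_apply]
  fin_cases i <;> fin_cases j <;> simp

theorem fr_dg (r : K) (hr : r ≠ 0) : fr (dg r hr) = dg (r ^ 2) (pow_ne_zero 2 hr) := by
  ext i j
  rw [fr_apply]
  fin_cases i <;> fin_cases j <;> simp

theorem fr_wy : fr (wy : SpecialLinearGroup (Fin 2) K) = wy := by
  ext i j
  rw [fr_apply]
  fin_cases i <;> fin_cases j <;> simp

omit [CharP K 2] in
theorem dg_comm (r s : K) (hr : r ≠ 0) (hs : s ≠ 0) : dg r hr * dg s hs = dg s hs * dg r hr := by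
  ext i j
  fin_cases i <;> fin_cases j <;> simp [mul_comm]

theorem wy_dg (r : K) (hr : r ≠ 0) :
    (wy : SpecialLinearGroup (Fin 2) K) * dg r hr = (dg r hr)⁻¹ * wy := by
  rw [eq_inv_mul_iff_mul_eq]
  ext i j
  fin_cases i <;> fin_cases j <;> simp [hr]

end

theorem exists_coords {V : Type*} [Group V] {K : Type*} [Field K] [CharP K 2]
    (hc : ∀ a b : V, a * b = b * a) (h2 : ∀ a : V, a * a = 1) (E : Subgroup (MulAut V))
    (ρ : E ≃* SpecialLinearGroup (Fin 2) K) (ψ : V →* Multiplicative (Fin 2 → K))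
    (hs : Function.Surjective ψ) (hk : ∀ v, ψ v = 1 → ∀ e ∈ E, e v = v)
    (he : ∀ (e : E) (v : V), Multiplicative.toAdd (ψ ((e : MulAut V) v)) =
      ((ρ e : SpecialLinearGroup (Fin 2) K) : Matrix (Fin 2) (Fin 2) K).mulVec (Multiplicative.toAdd (ψ v)))
    (r : K) (hr : r ≠ 0) (hr1 : r ≠ 1) (D' : Subgroup V)
    (hD1 : ∀ d ∈ D', ∃ d' ∈ D', (ρ.symm (dg r hr) : MulAut V) d' * d'⁻¹ = d)
    (hD2 : ∀ d ∈ D', ∀ t, (ρ.symm (up t) : MulAut V) d = d)
    (hD3 : ∀ w, ∃ d ∈ D', Multiplicative.toAdd (ψ d) = ![w, 0]) :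
    ∃ (σ : K → K → V) (δ : K → V),
      (∀ w u w' u', σ (w + w') (u + u') = σ w u * σ w' u') ∧ (∀ v v', δ (v + v') = δ v * δ v') ∧
      (∀ w u, Multiplicative.toAdd (ψ (σ w u)) = ![w, u]) ∧ (∀ v, ψ (δ v) = 1) ∧ (∀ w, σ w 0 ∈ D') ∧
      ∀ (g : SpecialLinearGroup (Fin 2) K) (w u : K), (ρ.symm (fr g) : MulAut V) (σ w u) =
        σ (g 0 0 ^ 2 * w + g 0 1 ^ 2 * u) (g 1 0 ^ 2 * w + g 1 1 ^ 2 * u) *
          δ (g 0 0 * g 1 0 * w + g 0 1 * g 1 1 * u) := by
  classical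
  have hinv : ∀ a : V, a⁻¹ = a := fun a => inv_eq_of_mul_eq_one_left (h2 a)
  -- the action of `SL₂`
  set M : SpecialLinearGroup (Fin 2) K → MulAut V := fun g => (ρ.symm g : MulAut V) with hM
  have hMm : ∀ g g', M (g * g') = M g * M g' := fun g g' => by simp [hM]
  have hMa : ∀ g g' v, M (g * g') v = M g (M g' v) := fun g g' v => by rw [hMm]; rfl
  have hMψ : ∀ g v, Multiplicative.toAdd (ψ (M g v)) =
      (g : Matrix (Fin 2) (Fin 2) K).mulVec (Multiplicative.toAdd (ψ v)) := fun g v => by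
    have := he (ρ.symm g) v
    rwa [MulEquiv.apply_symm_apply] at this
  have hMk : ∀ g v, ψ v = 1 → M g v = v := fun g v hv => hk v hv _ (ρ.symm g).2
  -- the map `h - 1`
  set h : SpecialLinearGroup (Fin 2) K := dg r hr with hh
  set N : V → V := fun v => M h v * v⁻¹ with hN
  have hNm : ∀ a b, N (a * b) = N a * N b := fun a b => by
    simp only [hN, map_mul, mul_inv_rev]
    calc M h a * M h b * (b⁻¹ * a⁻¹) = M h a * (M h b * b⁻¹) * a⁻¹ := by group
      _ = M h a * (a⁻¹ * (M h b * b⁻¹)) := by rw [mul_assoc, hc (M h b * b⁻¹) a⁻¹]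
      _ = _ := by group
  have hN1 : ∀ v, ψ v = 1 → N v = 1 := fun v hv => by simp only [hN, hMk h v hv, mul_inv_cancel]
  have hNψ : ∀ v, Multiplicative.toAdd (ψ (N v)) =
      ![(r - 1) * Multiplicative.toAdd (ψ v) 0, (r⁻¹ - 1) * Multiplicative.toAdd (ψ v) 1] := by
    intro v
    have h1 : Multiplicative.toAdd (ψ (N v)) = Multiplicative.toAdd (ψ (M h v)) - Multiplicative.toAdd (ψ v) := by
      simp only [hN, map_mul, map_inv, toAdd_mul, toAdd_inv, sub_eq_add_neg]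
    rw [h1, hMψ]
    ext i
    fin_cases i <;> simp [hh, dotProduct, Fin.sum_univ_two] <;> ring
  have hr' : r - 1 ≠ 0 := sub_ne_zero.2 hr1
  have hr'' : r⁻¹ - 1 ≠ 0 := sub_ne_zero.2 (fun h => hr1 (inv_eq_one.1 h))
  have hNu : ∀ v v', Multiplicative.toAdd (ψ (N v)) = Multiplicative.toAdd (ψ (N v')) → N v = N v' := by
    intro v v' hvv
    rw [hNψ, hNψ] at hvv
    have h0 := congrFun hvv 0
    have h1 := congrFun hvv 1
    simp only [Matrix.cons_val_zero, Matrix.cons_val_one] at h0 h1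
    have h0' := mul_left_cancel₀ hr' h0
    have h1' := mul_left_cancel₀ hr'' h1
    have h3 : ψ (v * v'⁻¹) = 1 := by
      rw [map_mul, map_inv, mul_inv_eq_one]
      apply Multiplicative.toAdd.injective
      ext i
      fin_cases i
      · exact h0'
      · exact h1'
    have h4 := hN1 _ h3
    rw [hNm] at h4
    have h5 : N v' * N v'⁻¹ = 1 := by rw [← hNm, mul_inv_cancel, hN1 1 (map_one ψ)]
    rw [eq_comm, ← mul_left_inj (N v'⁻¹), h5, h4]
  have hlift : ∀ p : Fin 2 → K, ∃ v, Multiplicative.toAdd (ψ v) = p := fun p => by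
    obtain ⟨v, hv⟩ := hs (Multiplicative.ofAdd p)
    exact ⟨v, by rw [hv]; rfl⟩
  choose Lf hLf using hlift
  set σ : K → K → V := fun w u => N (Lf ![w / (r - 1), u / (r⁻¹ - 1)]) with hσ
  have hσψ : ∀ w u, Multiplicative.toAdd (ψ (σ w u)) = ![w, u] := by
    intro w u
    simp only [hσ]
    rw [hNψ, hLf]
    ext i
    fin_cases i
    · simp; field_simp
    · simp; field_simp
  have hσu : ∀ w u v, Multiplicative.toAdd (ψ (N v)) = ![w, u] → N v = σ w u := by
    intro w u v hv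
    exact hNu _ _ (hv.trans (hσψ w u).symm)
  have hσadd : ∀ w u w' u', σ (w + w') (u + u') = σ w u * σ w' u' := by
    intro w u w' u'
    symm
    have : σ w u * σ w' u' = N (Lf ![w / (r - 1), u / (r⁻¹ - 1)] * Lf ![w' / (r - 1), u' / (r⁻¹ - 1)]) := by
      rw [hNm]
    rw [this]
    apply hσu
    rw [← this, map_mul, toAdd_mul, hσψ, hσψ]
    simp
  -- the fixed elements
  have hσ0 : ∀ w, σ w 0 ∈ D' := by
    intro w
    obtain ⟨d, hd, hdw⟩ := hD3 w
    obtain ⟨d', hd', hdd⟩ := hD1 d hd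
    have h1 : N d' = d := hdd
    rw [← hσu w 0 d' (by rw [h1]; exact hdw), h1]
    exact hd
  have hfix : ∀ w t, M (up t) (σ w 0) = σ w 0 := fun w t => hD2 _ (hσ0 w) t
  -- elements commuting with `h`
  have hcomm : ∀ g : SpecialLinearGroup (Fin 2) K, g * h = h * g → ∀ v, M g (N v) = N (M g v) := by
    intro g hg v
    simp only [hN, map_mul, map_inv]
    rw [← hMa, hg, hMa]
  have hdgσ : ∀ (s : K) (hs0 : s ≠ 0) (w u : K), M (dg s hs0) (σ w u) = σ (s * w) (s⁻¹ * u) := by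
    intro s hs0 w u
    have h1 : M (dg s hs0) (σ w u) = N (M (dg s hs0) (Lf ![w / (r - 1), u / (r⁻¹ - 1)])) :=
      hcomm _ (dg_comm s r hs0 hr) _
    rw [h1]
    apply hσu
    rw [← h1, hMψ, hσψ]
    ext i
    fin_cases i <;> simp [Matrix.mulVec, dotProduct, Fin.sum_univ_two]
  have hwyσ : ∀ w u, M wy (σ w u) = σ u w := by
    intro w u
    set v := Lf ![w / (r - 1), u / (r⁻¹ - 1)] with hv
    have h1 : M wy (σ w u) = N (M h⁻¹ (M wy v)) := by
      show M wy (M h v * v⁻¹) = M h (M h⁻¹ (M wy v)) * (M h⁻¹ (M wy v))⁻¹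
      rw [map_mul, map_inv, ← hMa, hh, wy_dg, hMa, ← hMa (dg r hr), mul_inv_cancel]
      have : M 1 (M wy v) = M wy v := by
        have h1 : M (1 : SpecialLinearGroup (Fin 2) K) = 1 := by simp [hM]
        rw [h1]
        rfl
      rw [this, hc]
      congr 1
      · exact hinv _
      · exact (hinv _).symm
    rw [h1]
    apply hσu
    rw [← h1, hMψ, hσψ]
    ext i
    fin_cases i <;> simp [Matrix.mulVec, dotProduct, Fin.sum_univ_two]
  -- the map `δ`
  set δ : K → V := fun u => M (up 1) (σ 0 u) * (σ u u)⁻¹ with hδ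
  have hδψ : ∀ u, ψ (δ u) = 1 := by
    intro u
    simp only [hδ]
    rw [map_mul, map_inv, mul_inv_eq_one]
    apply Multiplicative.toAdd.injective
    rw [hMψ, hσψ, hσψ]
    ext i
    fin_cases i <;> simp [Matrix.mulVec, dotProduct, Fin.sum_univ_two]
  have hδadd : ∀ v v', δ (v + v') = δ v * δ v' := by
    intro v v'
    simp only [hδ]
    have h1 : σ 0 (v + v') = σ 0 v * σ 0 v' := by rw [← hσadd, add_zero]
    rw [h1, hσadd, map_mul, mul_inv_rev]
    calc M (up 1) (σ 0 v) * M (up 1) (σ 0 v') * ((σ v' v')⁻¹ * (σ v v)⁻¹)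
        = M (up 1) (σ 0 v) * ((M (up 1) (σ 0 v') * (σ v' v')⁻¹) * (σ v v)⁻¹) := by group
      _ = M (up 1) (σ 0 v) * ((σ v v)⁻¹ * (M (up 1) (σ 0 v') * (σ v' v')⁻¹)) := by rw [hc (M (up 1) (σ 0 v') * (σ v' v')⁻¹)]
      _ = _ := by group
  have hδ1 : ∀ u, M (up 1) (σ 0 u) = σ u u * δ u := by
    intro u
    simp only [hδ]
    rw [hc (σ u u), inv_mul_cancel_right]
  have hMδ : ∀ g v, M g (δ v) = δ v := fun g v => hMk g _ (hδψ v)
  have hδ0 : δ 0 = 1 := by
    have := hδadd 0 0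
    rw [add_zero] at this
    exact (mul_eq_left.1 this.symm)
  have hσ00 : σ 0 0 = 1 := by
    have := hσadd 0 0 0 0
    rw [add_zero] at this
    exact (mul_eq_left.1 this.symm)
  have hup : ∀ t u, M (up (t ^ 2)) (σ 0 u) = σ (t ^ 2 * u) u * δ (t * u) := by
    intro t u
    by_cases ht : t = 0
    · subst ht
      have h1 : M (1 : SpecialLinearGroup (Fin 2) K) = 1 := by simp [hM]
      have h0 : ((0 : K) ^ 2) = 0 := by simp
      rw [h0, up_zero, h1, zero_mul, hδ0, mul_one]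
      rfl
    · have h1 : up (t ^ 2) = dg t ht * up 1 * (dg t ht)⁻¹ := by rw [dg_up, mul_one]
      have h2' : (dg t ht)⁻¹ = dg t⁻¹ (inv_ne_zero ht) := by
        rw [inv_eq_iff_mul_eq_one]
        ext i j
        fin_cases i <;> fin_cases j <;> simp [ht]
      rw [h1, hMa, hMa, h2', hdgσ, inv_inv, mul_zero, hδ1, map_mul, hdgσ, hMδ]
      congr 2
      · ring
      · field_simp
  refine ⟨σ, δ, hσadd, hδadd, hσψ, hδψ, hσ0, ?_⟩
  intro g
  show ∀ w u, M (fr g) (σ w u) =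
        σ (g 0 0 ^ 2 * w + g 0 1 ^ 2 * u) (g 1 0 ^ 2 * w + g 1 1 ^ 2 * u) *
          δ (g 0 0 * g 1 0 * w + g 0 1 * g 1 1 * u)
  clear_value σ δ M
  refine sl_induction (p := fun g => ∀ w u, M (fr g) (σ w u) =
        σ (g 0 0 ^ 2 * w + g 0 1 ^ 2 * u) (g 1 0 ^ 2 * w + g 1 1 ^ 2 * u) *
          δ (g 0 0 * g 1 0 * w + g 0 1 * g 1 1 * u)) ?_ ?_ ?_ ?_ g
  · intro t w u
    have h1 : σ w u = σ w 0 * σ 0 u := by rw [← hσadd, add_zero, zero_add]
    rw [fr_up, h1, map_mul, hfix, hup, ← mul_assoc, ← hσadd]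
    simp
  · intro s hs0 w u
    rw [fr_dg, hdgσ]
    simp [hδ0]
  · intro w u
    rw [fr_wy, hwyσ]
    simp [hδ0]
  · intro a b ha hb w u
    have hab : fr (a * b) = fr a * fr b := map_mul fr a b
    rw [hab, hMa, hb, map_mul, hMδ, ha, mul_assoc, ← hδadd]
    have hdet : a 0 0 * a 1 1 + a 0 1 * a 1 0 = 1 := by
      have := a.det_coe
      rwa [Matrix.det_fin_two, sub_eq_add_neg, CharTwo.neg_eq] at this
    have hdetb : b 0 0 * b 1 1 + b 0 1 * b 1 0 = 1 := by
      have := b.det_coe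
      rwa [Matrix.det_fin_two, sub_eq_add_neg, CharTwo.neg_eq] at this
    have h2K : (2 : K) = 0 := CharTwo.two_eq_zero
    have e00 : (a * b) 0 0 = a 0 0 * b 0 0 + a 0 1 * b 1 0 := by simp [Matrix.mul_apply, Fin.sum_univ_two]
    have e01 : (a * b) 0 1 = a 0 0 * b 0 1 + a 0 1 * b 1 1 := by simp [Matrix.mul_apply, Fin.sum_univ_two]
    have e10 : (a * b) 1 0 = a 1 0 * b 0 0 + a 1 1 * b 1 0 := by simp [Matrix.mul_apply, Fin.sum_univ_two]
    have e11 : (a * b) 1 1 = a 1 0 * b 0 1 + a 1 1 * b 1 1 := by simp [Matrix.mul_apply, Fin.sum_univ_two]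
    rw [e00, e01, e10, e11]
    congr 1
    · congr 1
      · linear_combination (-(a 0 0 * b 0 0 * (a 0 1 * b 1 0)) * w - (a 0 0 * b 0 1 * (a 0 1 * b 1 1)) * u) * h2K
      · linear_combination (-(a 1 0 * b 0 0 * (a 1 1 * b 1 0)) * w - (a 1 0 * b 0 1 * (a 1 1 * b 1 1)) * u) * h2K
    · congr 1
      linear_combination (-(b 0 0 * b 1 0 * w + b 0 1 * b 1 1 * u)) * hdet

end Cfsg.Agent.H869.SP
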