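import Mathlib

/-!
# S5175, SP1: a finite field of characteristic 2 with a square root of the Frobenius automorphism has odd degree
-/

set_option autoImplicit false

namespace Cfsg.Agent.H869.SP

theorem odd_of_theta {K : Type*} [Field K] [Fintype K] [CharP K 2] {n : ℕ} (hK : Fintype.card K = 2 ^ n)
    (θ : K ≃+* K) (hθ : ∀ t, θ (θ t) = t ^ 2) : Odd n := by
  classical
  by_contra hn
  rw [Nat.not_odd_iff_even] at hn
  obtain ⟨m, rfl⟩ := hn
  have h2 : (2 : K) = 0 := CharTwo.two_eq_zero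
  have h3 : Nat.Prime 3 := Nat.prime_three
  have : Fact (Nat.Prime 3) := ⟨h3⟩
  have hdvd : 3 ∣ Nat.card Kˣ := by
    rw [Nat.card_eq_fintype_card, Fintype.card_units, hK]
    have h1 : 2 ^ (m + m) = 4 ^ m := by rw [← two_mul, pow_mul]; norm_num
    rw [h1]
    have h4 : 1 ≤ 4 ^ m := Nat.one_le_pow _ _ (by norm_num)
    have h5 : 4 ^ m % 3 = 1 := by rw [Nat.pow_mod]; norm_num
    omega
  obtain ⟨u, hu⟩ := exists_prime_orderOf_dvd_card' 3 hdvd
  set ω : K := (u : K) with hω
  have hω3 : ω ^ 3 = 1 := by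
    have := pow_orderOf_eq_one u
    rw [hu] at this
    have h6 := congrArg (Units.val) this
    simpa using h6
  have hω1 : ω ≠ 1 := by
    intro h
    have : u = 1 := Units.ext h
    rw [this, orderOf_one] at hu
    omega
  have hq : ω ^ 2 + ω + 1 = 0 := by
    have : (ω - 1) * (ω ^ 2 + ω + 1) = 0 := by
      linear_combination hω3
    exact (mul_eq_zero.1 this).resolve_left (sub_ne_zero.2 hω1)
  have hθ3 : θ ω ^ 3 = 1 := by rw [← map_pow, hω3, map_one]
  have hprod : (θ ω - 1) * ((θ ω - ω) * (θ ω - ω ^ 2)) = 0 := by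
    linear_combination hθ3 - θ ω ^ 2 * hq + θ ω * hω3 + θ ω * hq - hω3
  have hne : θ ω ≠ 1 := fun h => hω1 (by rw [← map_one θ] at h; exact θ.injective h)
  have hω0 : ω ≠ 0 := u.ne_zero
  rcases mul_eq_zero.1 ((mul_eq_zero.1 hprod).resolve_left (sub_ne_zero.2 hne)) with h | h
  · have h1 : θ ω = ω := sub_eq_zero.1 h
    have h4 := hθ ω
    rw [h1, h1] at h4
    apply hω1
    have : ω * (ω - 1) = 0 := by linear_combination -h4
    exact sub_eq_zero.1 ((mul_eq_zero.1 this).resolve_left hω0)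
  · have h1 : θ ω = ω ^ 2 := sub_eq_zero.1 h
    have h4 := hθ ω
    rw [h1, map_pow, h1] at h4
    -- `ω ^ 4 = ω ^ 2`
    apply hω1
    have : ω * (ω - 1) = 0 := by linear_combination -h4 + ω * hω3
    exact sub_eq_zero.1 ((mul_eq_zero.1 this).resolve_left hω0)

end Cfsg.Agent.H869.SP
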