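import Mathlib
import Cfsg.Agent.H869.SP.Coord

/-!
# S5175, SP1: the involution swapping `V` and `V^x`, the final coordinates
-/

set_option autoImplicit false

namespace Cfsg.Agent.H869.SP

open Cfsg Cfsg.FusionSystem Cfsg.Agent.H756.HM Cfsg.Agent.H802
open Matrix (SpecialLinearGroup)

universe u

variable {Ω : Type u} [Group Ω] {S : Subgroup Ω}
  {F : FusionSystem S} {K : Type} [Field K] [Fintype K] {V T : Subgroup Ω} {x : Ω}

/-- an involution in `S \ T` -/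
theorem exists_inv_swap (c : Conf F K V T x) (hT : T = V ⊔ cj x V)
    (fm : Frm c) (hD : Nat.card (fixS V c.E) = Fintype.card K) :
    ∃ s ∈ S, s ∉ T ∧ s * s = 1 ∧ (∀ v ∈ V, s * v * s ∈ cj x V) ∧ (∀ v ∈ cj x V, s * v * s ∈ V) ∧
      (∀ d ∈ fixS V c.E, s * d * s = x * d * x⁻¹) ∧ cj s V = cj x V ∧ (∃ t ∈ T, s = t * x) := by
  obtain ⟨v, hv, a, ha, hx2⟩ := T_decomp c hT c.x_sq
  rw [pow_two] at hx2
  set y := v⁻¹ * x with hy
  have hyy : y * y = v⁻¹ * (x * a * x⁻¹) := by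
    have h1 : x * (v * a) * x⁻¹ = x * x := by rw [← hx2]; group
    calc y * y = v⁻¹ * (x * v⁻¹ * x⁻¹) * (x * x) := by rw [hy]; group
      _ = v⁻¹ * (x * v⁻¹ * x⁻¹) * (x * (v * a) * x⁻¹) := by rw [h1]
      _ = _ := by group
  have hyyV : y * y ∈ V := by
    rw [hyy]
    exact V.mul_mem (V.inv_mem hv) (x_conjW c ha)
  have hyc : ∀ w, y * w * y⁻¹ = v⁻¹ * (x * w * x⁻¹) * v := fun w => by rw [hy]; group
  have hyV : ∀ w ∈ V, y * w * y⁻¹ ∈ cj x V := by
    intro w hw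
    rw [hyc]
    have := T_conjW c (V_le_T c (V.inv_mem hv)) (cj_mem (x := x) hw)
    rwa [inv_inv] at this
  have hyW : ∀ w ∈ cj x V, y * w * y⁻¹ ∈ V := by
    intro w hw
    rw [hyc]
    have := T_conj c (V_le_T c (V.inv_mem hv)) (x_conjW c hw)
    rwa [inv_inv] at this
  have hyyW : y * y ∈ cj x V := by
    have := hyV _ hyyV
    have h1 : y * (y * y) * y⁻¹ = y * y := by group
    rwa [h1] at this
  obtain ⟨d, hd, d', hd', he⟩ := fm.exists_DD' hD (v := ⟨y * y, hyyV⟩) (fm.ψ_of_W hyyW)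
  have he' : y * y = d * d' := he
  have hDZ : ∀ d ∈ fixS V c.E, d ∈ V ⊓ cj x V := fun d hd => ⟨fixS_le hd, fm.D_le_W hd⟩
  have hD'Z : ∀ d ∈ cj x (fixS V c.E), d ∈ V ⊓ cj x V := fun d hd =>
    ⟨fm.D'_le_V hd, Frm.D'_le_W (c := c) hd⟩
  -- the action of `y` on `D` and `D'`
  have hyd : ∀ d ∈ fixS V c.E, y * d * y⁻¹ = x * d * x⁻¹ := by
    intro d hd
    have h1 := Z_comm c hT (hD'Z _ (cj_mem (x := x) hd)) v (V_le_T c hv)
    rw [hyc]
    calc v⁻¹ * (x * d * x⁻¹) * v = v⁻¹ * (x * d * x⁻¹ * v) := by group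
      _ = v⁻¹ * (v * (x * d * x⁻¹)) := by rw [h1]
      _ = _ := by group
  obtain ⟨d1, hd1, hd1e⟩ := hd'
  have hd1e' : x * d1 * x⁻¹ = d' := hd1e
  have hd' : d' ∈ cj x (fixS V c.E) := ⟨d1, hd1, hd1e⟩
  have hyd' : y * d' * y⁻¹ = d1 := by
    have h1 := Z_comm c hT (hDZ _ hd1) v (V_le_T c hv)
    have h2 := Z_comm c hT (hDZ _ hd1) (x * x) (by rw [← pow_two]; exact c.x_sq)
    rw [hyc, ← hd1e']
    calc v⁻¹ * (x * (x * d1 * x⁻¹) * x⁻¹) * v = v⁻¹ * ((x * x) * d1) * (x * x)⁻¹ * v := by group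
      _ = v⁻¹ * (d1 * (x * x)) * (x * x)⁻¹ * v := by rw [h2]
      _ = v⁻¹ * (d1 * v) := by group
      _ = v⁻¹ * (v * d1) := by rw [h1]
      _ = _ := by group
  have hdd' : x * d * x⁻¹ = d' := by
    have h1 : y * (y * y) * y⁻¹ = y * y := by group
    rw [he'] at h1
    have h2 : y * (d * d') * y⁻¹ = (y * d * y⁻¹) * (y * d' * y⁻¹) := by group
    rw [h2, hyd d hd, hyd'] at h1
    -- `(x d x⁻¹) d1 = d d'`
    have h3 : d⁻¹ * d1 = (x * d * x⁻¹)⁻¹ * d' := by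
      have h4 : (x * d * x⁻¹) * d1 = d1 * (x * d * x⁻¹) :=
        Vcomm c _ (fm.D'_le_V (cj_mem hd)) _ (fixS_le hd1)
      rw [h4] at h1
      calc d⁻¹ * d1 = d⁻¹ * (d1 * (x * d * x⁻¹)) * (x * d * x⁻¹)⁻¹ := by group
        _ = d⁻¹ * (d * d') * (x * d * x⁻¹)⁻¹ := by rw [h1]
        _ = d' * (x * d * x⁻¹)⁻¹ := by group
        _ = _ := Vcomm c _ (fm.D'_le_V hd') _ (V.inv_mem (fm.D'_le_V (cj_mem hd)))
    have h5 : d⁻¹ * d1 ∈ fixS V c.E ⊓ cj x (fixS V c.E) :=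
      ⟨Subgroup.mul_mem _ (Subgroup.inv_mem _ hd) hd1, by
        rw [h3]; exact Subgroup.mul_mem _ (Subgroup.inv_mem _ (cj_mem hd)) hd'⟩
    rw [c.DD, Subgroup.mem_bot] at h5
    have h6 : d = d1 := (inv_mul_eq_one.1 h5)
    rw [h6]
    exact hd1e'
  have hd2 : d * d = 1 := by rw [← pow_two]; exact c.el d (fixS_le hd)
  have hdi : d⁻¹ = d := inv_eq_of_mul_eq_one_left hd2
  have hd'2 : d' * d' = 1 := by rw [← pow_two]; exact c.el d' (fm.D'_le_V hd')
  have hcomm : d * d' = d' * d := Vcomm c _ (fixS_le hd) _ (fm.D'_le_V hd')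
  have hydd : y * d = d' * y := by
    have := hyd d hd
    rw [hdd'] at this
    rw [← this]
    group
  set s := d * y with hs
  have hss : s * s = 1 := by
    calc s * s = d * (y * d) * y := by rw [hs]; group
      _ = d * (d' * y) * y := by rw [hydd]
      _ = d * d' * (y * y) := by group
      _ = d * d' * (d * d') := by rw [he']
      _ = d * (d' * d) * d' := by group
      _ = d * (d * d') * d' := by rw [hcomm]
      _ = (d * d) * (d' * d') := by group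
      _ = 1 := by rw [hd2, hd'2, one_mul]
  have hsi : s⁻¹ = s := inv_eq_of_mul_eq_one_left hss
  have hdT : d ∈ T := V_le_T c (fixS_le hd)
  have hst : s = (d * v⁻¹) * x := by rw [hs, hy]; group
  have htT : d * v⁻¹ ∈ T := T.mul_mem hdT (T.inv_mem (V_le_T c hv))
  have hsc : ∀ w, s * w * s = (d * v⁻¹) * (x * w * x⁻¹) * (d * v⁻¹)⁻¹ := by
    intro w
    conv_lhs => rw [show s * w * s = s * w * s⁻¹ by rw [hsi]]
    rw [hst]
    group
  have hsV : ∀ w ∈ V, s * w * s ∈ cj x V := fun w hw => by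
    rw [hsc]
    exact T_conjW c htT (cj_mem hw)
  have hsW : ∀ w ∈ cj x V, s * w * s ∈ V := fun w hw => by
    rw [hsc]
    exact T_conj c htT (x_conjW c hw)
  refine ⟨s, ?_, ?_, hss, hsV, hsW, ?_, ?_, d * v⁻¹, htT, hst⟩
  · rw [hst]
    exact S.mul_mem (T_le c htT) c.x_mem
  · intro h
    rw [hst] at h
    exact c.x_not ((Subgroup.mul_mem_cancel_left T htT).1 h)
  · intro d0 hd0
    rw [hsc, Z_comm c hT (hD'Z _ (cj_mem (x := x) hd0)) _ htT]
    group
  · ext g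
    rw [mem_cj]
    constructor
    · intro h
      have h1 := hsV _ h
      rw [hsi] at h1
      have h2 : s * (s * g * s) * s = g := by
        calc s * (s * g * s) * s = (s * s) * g * (s * s) := by group
          _ = g := by rw [hss, one_mul, mul_one]
      rwa [h2] at h1
    · intro h
      rw [hsi]
      exact hsW _ h

end Cfsg.Agent.H869.SP
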